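import Mathlib
import Cfsg.Agent.Lib.Helper32.P8.Tools
import Cfsg.Agent.Lib.Helper11.Scn.LemA0a

/-!
# S4409: elementary facts on four-subgroups (helper97)
-/

set_option autoImplicit false

universe u

namespace Cfsg.Agent.Lib.Helper97.P8

open Cfsg.Agent.Lib.Helper32.P8 Cfsg.Agent.Lib.Helper11.Scn

/-- a subgroup of exponent 2 is abelian. -/
theorem comm_of_exp_two {G : Type u} [Group G] (T : Subgroup G) (hexp : ∀ t ∈ T, t * t = 1)
    {s t : G} (hs : s ∈ T) (ht : t ∈ T) : s * t = t * s := by
  have e1 : (s * t)⁻¹ = s * t := inv_eq_of_mul_eq_one_left (hexp (s * t) (T.mul_mem hs ht))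
  have e2 : s⁻¹ = s := inv_eq_of_mul_eq_one_left (hexp s hs)
  have e3 : t⁻¹ = t := inv_eq_of_mul_eq_one_left (hexp t ht)
  calc s * t = (s * t)⁻¹ := e1.symm
    _ = t⁻¹ * s⁻¹ := mul_inv_rev _ _
    _ = t * s := by rw [e2, e3]

/-- a subgroup of order 4 has an element outside `{1, a}`. -/
theorem exists_third {G : Type u} [Group G] [Finite G] (T : Subgroup G) (hT4 : Nat.card T = 4)
    (a : G) : ∃ y ∈ T, y ≠ 1 ∧ y ≠ a := by
  by_contra hcon
  push Not at hcon
  have hsub : (T : Set G) ⊆ {1, a} := by
    intro y hy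
    by_cases h1 : y = 1
    · left; exact h1
    · right; exact hcon y hy h1
  have h1 := Set.ncard_le_ncard hsub (Set.toFinite _)
  have h2 : ({1, a} : Set G).ncard ≤ 2 := by
    refine (Set.ncard_insert_le _ _).trans ?_
    rw [Set.ncard_singleton]
  have h3 : Nat.card T = (T : Set G).ncard := Nat.card_coe_set_eq (T : Set G)
  omega

/-- a four-group is `{1, a, b, a * b}`. -/
theorem four_elts {G : Type u} [Group G] [Finite G] (T : Subgroup G) (hT4 : Nat.card T = 4)
    (hexp : ∀ t ∈ T, t * t = 1) {a b : G} (ha : a ∈ T) (hb : b ∈ T) (ha1 : a ≠ 1) (hb1 : b ≠ 1)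
    (hab : a ≠ b) : ∀ t ∈ T, t = 1 ∨ t = a ∨ t = b ∨ t = a * b := by
  classical
  have hab1 : a * b ≠ 1 := by
    intro h
    have e2 : a⁻¹ = a := inv_eq_of_mul_eq_one_left (hexp a ha)
    have : b = a⁻¹ := (inv_eq_of_mul_eq_one_right h).symm
    exact hab (by rw [this, e2])
  have hsub : (({1, a, b, a * b} : Finset G) : Set G) ⊆ (T : Set G) := by
    intro y hy
    simp only [Finset.coe_insert, Finset.coe_singleton, Set.mem_insert_iff,
      Set.mem_singleton_iff] at hy
    rcases hy with rfl | rfl | rfl | rfl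
    · exact T.one_mem
    · exact ha
    · exact hb
    · exact T.mul_mem ha hb
  have hcard : ({1, a, b, a * b} : Finset G).card = 4 := by
    rw [Finset.card_insert_of_notMem, Finset.card_insert_of_notMem, Finset.card_insert_of_notMem,
      Finset.card_singleton]
    · simp only [Finset.mem_singleton]
      intro h
      apply ha1
      have : 1 * b = a * b := by rw [one_mul]; exact h
      exact (mul_right_cancel this).symm
    · simp only [Finset.mem_insert, Finset.mem_singleton, not_or]
      refine ⟨hab, fun h => hb1 ?_⟩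
      have : a * 1 = a * b := by rw [mul_one]; exact h
      exact (mul_left_cancel this).symm
    · simp only [Finset.mem_insert, Finset.mem_singleton, not_or]
      exact ⟨fun h => ha1 h.symm, fun h => hb1 h.symm, fun h => hab1 h.symm⟩
  have h3 : Nat.card T = (T : Set G).ncard := Nat.card_coe_set_eq (T : Set G)
  have heq : (({1, a, b, a * b} : Finset G) : Set G) = (T : Set G) := by
    apply Set.eq_of_subset_of_ncard_le hsub
    rw [Set.ncard_coe_finset, hcard, ← h3, hT4]
  intro t ht
  have : t ∈ (({1, a, b, a * b} : Finset G) : Set G) := by rw [heq]; exact ht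
  simpa using this

end Cfsg.Agent.Lib.Helper97.P8
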