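import Mathlib
import Cfsg.Agent.Lib.Helper32.P8.Tools
import Cfsg.Agent.Lib.Helper97.P8.Four
import Cfsg.Agent.S0026
import Cfsg.Agent.S0027

/-!
# S4409 package (DBE): `N = [N, H] C_N([N, H])` when `[N, H]` is a four-group (helper97)
-/

set_option autoImplicit false

universe u

namespace Cfsg.Agent.Lib.Helper97.P8

open Cfsg.Agent.Lib.Helper32.P8 Cfsg.Agent.Lib.Helper11.Scn

/-- coprimality and solvability data for the coprime-action lemmas. -/
theorem odd_two_data {G : Type u} [Group G] [Finite G] (H N : Subgroup G)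
    (hodd : Odd (Nat.card H)) (hN2 : IsPGroup 2 N) :
    (Nat.card H).Coprime (Nat.card N) ∧ (Group.IsSolvable H ∨ Group.IsSolvable N) := by
  have : Fact (Nat.Prime 2) := ⟨Nat.prime_two⟩
  constructor
  · obtain ⟨n, hn⟩ := IsPGroup.iff_card.mp hN2
    rw [hn]
    exact Nat.Coprime.pow_right n (Nat.coprime_two_right.mpr hodd)
  · right
    have := hN2.isNilpotent
    infer_instance

/-- conjugation by an element of a subgroup of odd order is an automorphism of odd order. -/
theorem odd_conj {G : Type u} [Group G] [Finite G] (H : Subgroup G) (hodd : Odd (Nat.card H))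
    {h : G} (hh : h ∈ H) : Odd (orderOf (MulAut.conj h)) :=
  hodd.of_dvd_nat ((orderOf_map_dvd MulAut.conj h).trans (H.orderOf_dvd_natCard hh))

theorem lemDecBE : Cfsg.Agent.Lib.Helper32.P8.LemDecBE.{u} := by
  intro G _ _ H N hodd hN2 hHN h4 hexp
  classical
  have : Fact (Nat.Prime 2) := ⟨Nat.prime_two⟩
  obtain ⟨hcop, hsolv⟩ := odd_two_data H N hodd hN2
  have h26 := Cfsg.Agent.S0026.result H N hHN hcop hsolv
  have h27 := Cfsg.Agent.S0027.result H N hHN hcop hsolv
  have hN1N : ⁅N, H⁆ ≤ N := commutator_le_of_le_normalizer hHN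
  have hNn : N ≤ Subgroup.normalizer ((⁅N, H⁆ : Subgroup G) : Set G) :=
    le_normalizer_commutator_left H N
  have hHn : H ≤ Subgroup.normalizer ((⁅N, H⁆ : Subgroup G) : Set G) :=
    le_normalizer_commutator hHN
  have hN1bot : (⁅N, H⁆ : Subgroup G) ≠ ⊥ := by
    intro h
    rw [h] at h4
    simp at h4
  suffices hkey : N ⊓ Subgroup.centralizer (H : Set G) ≤
      N ⊓ Subgroup.centralizer ((⁅N, H⁆ : Subgroup G) : Set G) by
    calc N = ⁅N, H⁆ ⊔ (N ⊓ Subgroup.centralizer (H : Set G)) := h26.symm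
      _ ≤ ⁅N, H⁆ ⊔ (N ⊓ Subgroup.centralizer ((⁅N, H⁆ : Subgroup G) : Set G)) :=
        sup_le_sup_left hkey _
  intro c hc
  obtain ⟨hcN, hcH⟩ := Subgroup.mem_inf.mp hc
  refine Subgroup.mem_inf.mpr ⟨hcN, ?_⟩
  rw [Subgroup.mem_centralizer_iff] at hcH
  -- an element of `[N, H]` central in `N`
  have hnorm : ((⁅N, H⁆ : Subgroup G).subgroupOf N).Normal :=
    (Subgroup.normal_subgroupOf_iff_le_normalizer hN1N).mpr hNn
  have hsub1 : (⁅N, H⁆ : Subgroup G).subgroupOf N ≠ ⊥ := by
    intro h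
    rw [Subgroup.subgroupOf_eq_bot] at h
    exact hN1bot (le_bot_iff.mp (h le_rfl hN1N))
  obtain ⟨y, hyN, hyZ, hy1⟩ :=
    normal_inf_center_ne_bot hN2 ((⁅N, H⁆ : Subgroup G).subgroupOf N) hsub1
  have hv1 : (y : G) ∈ ⁅N, H⁆ := Subgroup.mem_subgroupOf.mp hyN
  have hv1ne : (y : G) ≠ 1 := fun h => hy1 (Subtype.ext h)
  have hv1N : ∀ n ∈ N, n * (y : G) = (y : G) * n := by
    intro n hn
    have := Subgroup.mem_center_iff.mp hyZ ⟨n, hn⟩
    exact congrArg Subtype.val this
  -- some `h ∈ H` moves it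
  have hmove : ∃ h ∈ H, h * (y : G) * h⁻¹ ≠ (y : G) := by
    by_contra hcon
    push Not at hcon
    apply hN1bot
    rw [← h27, Subgroup.commutator_eq_bot_iff_le_centralizer]
    intro x hx
    rw [Subgroup.mem_centralizer_iff]
    intro h hh
    obtain ⟨y0, hy0T, hy01, hy0y⟩ := exists_third _ h4 (y : G)
    have hfour := four_elts _ h4 hexp hv1 hy0T hv1ne hy01 (Ne.symm hy0y)
    have hhy : h * (y : G) = (y : G) * h := by
      calc h * (y : G) = h * (y : G) * h⁻¹ * h := by group
        _ = (y : G) * h := by rw [hcon h hh]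
    have hhy0 : h * y0 * h⁻¹ = y0 := by
      rcases hfour _ (conj_mem_of_le_normalizer hHn hh hy0T) with h' | h' | h' | h'
      · exfalso
        apply hy01
        have : y0 = h⁻¹ * (h * y0 * h⁻¹) * h := by group
        rw [this, h']; group
      · exfalso
        apply hy0y
        have : y0 = h⁻¹ * (h * y0 * h⁻¹) * h := by group
        rw [this, h', mul_assoc, ← hhy]; group
      · exact h'
      · have hyy : (y : G) * (y : G) = 1 := hexp _ hv1
        have hsq : MulAut.conj h (MulAut.conj h y0) = y0 := by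
          rw [MulAut.conj_apply, MulAut.conj_apply, h']
          calc h * ((y : G) * y0) * h⁻¹ = (h * (y : G)) * y0 * h⁻¹ := by group
            _ = ((y : G) * h) * y0 * h⁻¹ := by rw [hhy]
            _ = (y : G) * (h * y0 * h⁻¹) := by group
            _ = (y : G) * ((y : G) * y0) := by rw [h']
            _ = ((y : G) * (y : G)) * y0 := by group
            _ = y0 := by rw [hyy, one_mul]
        have := aut_fix_of_sq_fix (MulAut.conj h) (odd_conj H hodd hh) y0 hsq
        rw [MulAut.conj_apply] at this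
        exact this
    have hhy0' : h * y0 = y0 * h := by
      calc h * y0 = h * y0 * h⁻¹ * h := by group
        _ = y0 * h := by rw [hhy0]
    rcases hfour x hx with rfl | rfl | rfl | rfl
    · simp
    · exact hhy
    · exact hhy0'
    · rw [← mul_assoc, hhy, mul_assoc, hhy0', mul_assoc]
  obtain ⟨h, hh, hne⟩ := hmove
  have hwT : h * (y : G) * h⁻¹ ∈ ⁅N, H⁆ := conj_mem_of_le_normalizer hHn hh hv1
  have hw1 : h * (y : G) * h⁻¹ ≠ 1 := by
    intro h'
    apply hv1ne
    have : (y : G) = h⁻¹ * (h * (y : G) * h⁻¹) * h := by group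
    rw [this, h']; group
  have hfour := four_elts _ h4 hexp hv1 hwT hv1ne hw1 (Ne.symm hne)
  have hcy : (y : G) * c = c * (y : G) := (hv1N c hcN).symm
  have hch : h * c = c * h := hcH h hh
  have hch' : h⁻¹ * c = c * h⁻¹ := by
    calc h⁻¹ * c = h⁻¹ * (c * h) * h⁻¹ := by group
      _ = h⁻¹ * (h * c) * h⁻¹ := by rw [hch]
      _ = c * h⁻¹ := by group
  have hcw : h * (y : G) * h⁻¹ * c = c * (h * (y : G) * h⁻¹) := by
    calc h * (y : G) * h⁻¹ * c = h * (y : G) * (h⁻¹ * c) := by group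
      _ = h * (y : G) * (c * h⁻¹) := by rw [hch']
      _ = h * ((y : G) * c) * h⁻¹ := by group
      _ = h * (c * (y : G)) * h⁻¹ := by rw [hcy]
      _ = (h * c) * (y : G) * h⁻¹ := by group
      _ = (c * h) * (y : G) * h⁻¹ := by rw [hch]
      _ = c * (h * (y : G) * h⁻¹) := by group
  rw [Subgroup.mem_centralizer_iff]
  intro n hn
  rcases hfour n hn with rfl | rfl | rfl | rfl
  · simp
  · exact hcy
  · exact hcw
  · rw [mul_assoc, hcw, ← mul_assoc, hcy, mul_assoc]

end Cfsg.Agent.Lib.Helper97.P8
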