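import Mathlib
import Cfsg.Agent.Lib.Helper11.Scn.LemA0a

/-!
# S4409: facts on the quaternion group of order 8 and its automorphisms (helper97)

Elementwise facts on `QuaternionGroup 2` (by `decide`), transported to any group `T` with
`e : T ≃* QuaternionGroup 2`, and the consequences for automorphisms `ψ : MulAut T`:
`aut_id` (fixing two noncommuting elements), `aut_pairs` (fixing two noncommuting pairs
`{u, u⁻¹}`), `aut_two_fix` (a 2-element fixes a pair), `aut_odd_id` (an element of odd order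
fixing a pair is trivial).
-/

set_option autoImplicit false

universe u

namespace Cfsg.Agent.Lib.Helper97.P8

open Cfsg.Agent.Lib.Helper11.Scn

theorem q_gen : ∀ u v t : QuaternionGroup 2, u * v ≠ v * u →
    (t = 1 ∨ t = u * u ∨ t = u ∨ t = u⁻¹ ∨ t = v ∨ t = v⁻¹ ∨ t = u * v ∨ t = (u * v)⁻¹) := by
  decide

theorem q_f2 : ∀ u v : QuaternionGroup 2, u * v ≠ v * u →
    u⁻¹ * v = (u * v)⁻¹ ∧ u * v⁻¹ = (u * v)⁻¹ ∧ u⁻¹ * v⁻¹ = u * v ∧ v * u = (u * v)⁻¹ ∧
      v * u⁻¹ = u * v := by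
  decide

theorem q_f3 : ∀ u w : QuaternionGroup 2, u * u ≠ 1 → w * w ≠ 1 → w ≠ u → w ≠ u⁻¹ →
    u * w ≠ w * u := by
  decide

theorem q_f4 : ∀ u v : QuaternionGroup 2, u * v ≠ v * u →
    (u * v) * (u * v) ≠ 1 ∧ u * u ≠ 1 ∧ v * v ≠ 1 := by
  decide

theorem q_f5 : ∀ u t : QuaternionGroup 2, (u * u) * (u * u) = 1 ∧ (u * u) * t = t * (u * u) := by
  decide

theorem q_f6 : ∀ u v : QuaternionGroup 2, u * v ≠ v * u →
    v * (u * v) = u ∧ v * (u * v)⁻¹ = u⁻¹ := by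
  decide

theorem q_f7 : ∀ u v : QuaternionGroup 2, u * v ≠ v * u →
    u * (u * v) = v⁻¹ ∧ u⁻¹ * (u * v) = v ∧ u * (u * v)⁻¹ = v ∧ u⁻¹ * (u * v)⁻¹ = v⁻¹ := by
  decide

theorem q_f8 : ∀ q : QuaternionGroup 2, q * q = 1 → q = 1 ∨ q = QuaternionGroup.a 2 := by
  decide

theorem q_f9 : ∀ s x v : QuaternionGroup 2, x * v ≠ v * x → s * x = x * s →
    s * v * s⁻¹ = v⁻¹ → s = x ∨ s = x⁻¹ := by
  decide

theorem q_f10 : ∀ u : QuaternionGroup 2, u * u ≠ 1 → ∃ v, u * v ≠ v * u := by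
  decide

theorem q_f0 : ∃ u : QuaternionGroup 2, u * u ≠ 1 := by
  decide

theorem q_f11 : ∃ u v : QuaternionGroup 2, u * v ≠ v * u := by
  decide

theorem q_conj : ∀ s t : QuaternionGroup 2, s * t * s⁻¹ = t ∨ s * t * s⁻¹ = t⁻¹ := by
  decide

section Transport

variable {T : Type u} [Group T] (e : T ≃* QuaternionGroup 2)
include e

theorem t_gen (u v t : T) (h : u * v ≠ v * u) :
    (t = 1 ∨ t = u * u ∨ t = u ∨ t = u⁻¹ ∨ t = v ∨ t = v⁻¹ ∨ t = u * v ∨ t = (u * v)⁻¹) := by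
  have key := q_gen (e u) (e v) (e t)
  simp only [← map_mul, ← map_inv, ← map_one e, EmbeddingLike.apply_eq_iff_eq, ne_eq] at key
  exact key h

theorem t_f2 (u v : T) (h : u * v ≠ v * u) :
    u⁻¹ * v = (u * v)⁻¹ ∧ u * v⁻¹ = (u * v)⁻¹ ∧ u⁻¹ * v⁻¹ = u * v ∧ v * u = (u * v)⁻¹ ∧
      v * u⁻¹ = u * v := by
  have key := q_f2 (e u) (e v)
  simp only [← map_mul, ← map_inv, EmbeddingLike.apply_eq_iff_eq, ne_eq] at key
  exact key h

theorem t_f3 (u w : T) (hu : u * u ≠ 1) (hw : w * w ≠ 1) (h1 : w ≠ u) (h2 : w ≠ u⁻¹) :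
    u * w ≠ w * u := by
  have key := q_f3 (e u) (e w)
  simp only [← map_mul, ← map_inv, ← map_one e, EmbeddingLike.apply_eq_iff_eq, ne_eq] at key
  exact key hu hw h1 h2

theorem t_f4 (u v : T) (h : u * v ≠ v * u) :
    (u * v) * (u * v) ≠ 1 ∧ u * u ≠ 1 ∧ v * v ≠ 1 := by
  have key := q_f4 (e u) (e v)
  simp only [← map_mul, ← map_one e, EmbeddingLike.apply_eq_iff_eq, ne_eq] at key
  exact key h

theorem t_f5 (u t : T) : (u * u) * (u * u) = 1 ∧ (u * u) * t = t * (u * u) := by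
  have key := q_f5 (e u) (e t)
  simp only [← map_mul, ← map_one e, EmbeddingLike.apply_eq_iff_eq] at key
  exact key

theorem t_f6 (u v : T) (h : u * v ≠ v * u) :
    v * (u * v) = u ∧ v * (u * v)⁻¹ = u⁻¹ := by
  have key := q_f6 (e u) (e v)
  simp only [← map_mul, ← map_inv, EmbeddingLike.apply_eq_iff_eq, ne_eq] at key
  exact key h

theorem t_f7 (u v : T) (h : u * v ≠ v * u) :
    u * (u * v) = v⁻¹ ∧ u⁻¹ * (u * v) = v ∧ u * (u * v)⁻¹ = v ∧ u⁻¹ * (u * v)⁻¹ = v⁻¹ := by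
  have key := q_f7 (e u) (e v)
  simp only [← map_mul, ← map_inv, EmbeddingLike.apply_eq_iff_eq, ne_eq] at key
  exact key h

theorem t_f8 (q : T) (h : q * q = 1) : q = 1 ∨ q = e.symm (QuaternionGroup.a 2) := by
  have hq : e q * e q = 1 := by rw [← map_mul, h, map_one]
  rcases q_f8 (e q) hq with h1 | h1
  · left; exact e.injective (by rw [h1, map_one])
  · right; rw [← h1, e.symm_apply_apply]

theorem t_f9 (s x v : T) (h : x * v ≠ v * x) (h1 : s * x = x * s) (h2 : s * v * s⁻¹ = v⁻¹) :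
    s = x ∨ s = x⁻¹ := by
  have key := q_f9 (e s) (e x) (e v)
  simp only [← map_mul, ← map_inv, EmbeddingLike.apply_eq_iff_eq, ne_eq] at key
  exact key h h1 h2

theorem t_f10 (u : T) (h : u * u ≠ 1) : ∃ v, u * v ≠ v * u := by
  have key := q_f10 (e u)
  rw [← map_mul, ← map_one e, ne_eq, EmbeddingLike.apply_eq_iff_eq] at key
  obtain ⟨v, hv⟩ := key h
  refine ⟨e.symm v, fun h' => hv ?_⟩
  have := congrArg e h'
  simpa using this

theorem t_f0 : ∃ u : T, u * u ≠ 1 := by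
  obtain ⟨u, hu⟩ := q_f0
  refine ⟨e.symm u, fun h' => hu ?_⟩
  have := congrArg e h'
  simpa using this

theorem t_f11 : ∃ u v : T, u * v ≠ v * u := by
  obtain ⟨u, v, hu⟩ := q_f11
  refine ⟨e.symm u, e.symm v, fun h' => hu ?_⟩
  have := congrArg e h'
  simpa using this

theorem t_conj (s t : T) : s * t * s⁻¹ = t ∨ s * t * s⁻¹ = t⁻¹ := by
  have key := q_conj (e s) (e t)
  simp only [← map_mul, ← map_inv, EmbeddingLike.apply_eq_iff_eq] at key
  exact key

/-- an automorphism fixing two noncommuting elements is trivial. -/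
theorem aut_id (ψ : MulAut T) (u v : T) (h : u * v ≠ v * u) (hu : ψ u = u) (hv : ψ v = v) :
    ∀ t, ψ t = t := by
  intro t
  rcases t_gen e u v t h with rfl | rfl | rfl | rfl | rfl | rfl | rfl | rfl <;>
    simp [map_mul, map_inv, hu, hv]

/-- an automorphism fixing two noncommuting pairs fixes all pairs. -/
theorem aut_pairs (ψ : MulAut T) (u v : T) (h : u * v ≠ v * u) (hu : ψ u = u ∨ ψ u = u⁻¹)
    (hv : ψ v = v ∨ ψ v = v⁻¹) : ∀ t, ψ t = t ∨ ψ t = t⁻¹ := by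
  intro t
  obtain ⟨h1, h2, h3, h4, h5⟩ := t_f2 e u v h
  rcases t_gen e u v t h with rfl | rfl | rfl | rfl | rfl | rfl | rfl | rfl
  · left; simp
  · rcases hu with hu | hu
    · left; rw [map_mul, hu]
    · right; rw [map_mul, hu]; simp
  · exact hu
  · rcases hu with hu | hu
    · left; rw [map_inv, hu]
    · right; rw [map_inv, hu]
  · exact hv
  · rcases hv with hv | hv
    · left; rw [map_inv, hv]
    · right; rw [map_inv, hv]
  · rw [map_mul]
    rcases hu with hu | hu <;> rcases hv with hv | hv <;> rw [hu, hv]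
    · left; rfl
    · right; exact h2
    · right; exact h1
    · left; exact h3
  · rw [map_inv, map_mul, inv_inv]
    rcases hu with hu | hu <;> rcases hv with hv | hv <;> rw [hu, hv]
    · left; rfl
    · right; rw [h2, inv_inv]
    · right; rw [h1, inv_inv]
    · left; rw [h3]

/-- an automorphism of 2-power order fixes some pair `{x, x⁻¹}` of elements of order 4. -/
theorem aut_two_fix (ψ : MulAut T) (k : ℕ) (hk : ψ ^ (2 ^ k) = 1) :
    ∃ x : T, x * x ≠ 1 ∧ (ψ x = x ∨ ψ x = x⁻¹) := by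
  by_contra hcon
  push Not at hcon
  obtain ⟨u0, hu0⟩ := t_f0 e
  have hsq : ∀ x : T, x * x ≠ 1 → ψ x * ψ x ≠ 1 := by
    intro x hx h
    apply hx
    apply ψ.injective
    rw [map_mul, map_one]
    exact h
  have hu1sq := hsq u0 hu0
  have hne := hcon u0 hu0
  have hnc : u0 * ψ u0 ≠ ψ u0 * u0 := t_f3 e u0 (ψ u0) hu0 hu1sq hne.1 hne.2
  have hu2sq := hsq (ψ u0) hu1sq
  have hne2 := hcon (ψ u0) hu1sq
  obtain ⟨f21, f22, f23, f24, f25⟩ := t_f2 e u0 (ψ u0) hnc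
  obtain ⟨f61, f62⟩ := t_f6 e u0 (ψ u0) hnc
  obtain ⟨f41, -, -⟩ := t_f4 e u0 (ψ u0) hnc
  have h3 : ψ (ψ (ψ u0)) = u0 := by
    rcases t_gen e u0 (ψ u0) (ψ (ψ u0)) hnc with h | h | h | h | h | h | h | h
    · exfalso; apply hu2sq; rw [h]; simp
    · exfalso; apply hu2sq; rw [h]; exact (t_f5 e u0 1).1
    · exfalso
      apply (hcon (u0 * ψ u0) f41).2
      rw [map_mul, h]; exact f24
    · exfalso
      apply (hcon (u0 * ψ u0) f41).1
      rw [map_mul, h]; exact f25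
    · exact absurd h hne2.1
    · exact absurd h hne2.2
    · rw [h, map_mul, h]; exact f61
    · rw [h, map_inv, map_mul, h, f62, inv_inv]
  have hc0 : (ψ ^ 3) u0 = u0 := by
    have : ψ ^ 3 = ψ * ψ * ψ := by rw [pow_succ, pow_two]
    rw [this, MulAut.mul_apply, MulAut.mul_apply]
    exact h3
  have hc1 : (ψ ^ 3) (ψ u0) = ψ u0 := by
    have : ψ ^ 3 = ψ * ψ * ψ := by rw [pow_succ, pow_two]
    rw [this, MulAut.mul_apply, MulAut.mul_apply, h3]
  have hid : ψ ^ 3 = 1 := by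
    ext t
    exact aut_id e (ψ ^ 3) u0 (ψ u0) hnc hc0 hc1 t
  have hψ1 : ψ = 1 := by
    have h1 : orderOf ψ ∣ 3 := orderOf_dvd_of_pow_eq_one hid
    have h2 : orderOf ψ ∣ 2 ^ k := orderOf_dvd_of_pow_eq_one hk
    have h3 : orderOf ψ ∣ Nat.gcd 3 (2 ^ k) := Nat.dvd_gcd h1 h2
    have h4 : Nat.gcd 3 (2 ^ k) = 1 := Nat.Coprime.pow_right k (by decide)
    rw [h4, Nat.dvd_one] at h3
    exact orderOf_eq_one_iff.mp h3
  apply hne.1
  rw [hψ1]
  rfl

omit e in
theorem aut_fix_of_pow4 (ψ : MulAut T) (hodd : Odd (orderOf ψ)) (b : T)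
    (hb : ψ (ψ (ψ (ψ b))) = b) : ψ b = b := by
  apply aut_fix_of_sq_fix ψ hodd
  obtain ⟨k, hk⟩ := hodd
  have h4 : (ψ ^ 4) b = b := by
    have : ψ ^ 4 = ψ * ψ * ψ * ψ := by rw [pow_succ, pow_succ, pow_two]
    rw [this, MulAut.mul_apply, MulAut.mul_apply, MulAut.mul_apply]
    exact hb
  have h5 := aut_pow_fix (ψ ^ 4) b h4 (k + 1)
  have h6 : (ψ ^ 4) ^ (k + 1) = ψ ^ 2 := by
    rw [← pow_mul, show 4 * (k + 1) = orderOf ψ * 2 + 2 by omega, pow_add, pow_mul,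
      pow_orderOf_eq_one, one_pow, one_mul]
  rw [h6, pow_two, MulAut.mul_apply] at h5
  exact h5

/-- an automorphism of odd order fixing a pair `{x, x⁻¹}` of elements of order 4 is trivial. -/
theorem aut_odd_id (ψ : MulAut T) (hodd : Odd (orderOf ψ)) (x : T) (hx : x * x ≠ 1)
    (hfx : ψ x = x ∨ ψ x = x⁻¹) : ∀ t, ψ t = t := by
  have hx1 : ψ x = x := by
    apply aut_fix_of_sq_fix ψ hodd
    rcases hfx with h | h
    · rw [h, h]
    · rw [h, map_inv, h, inv_inv]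
  obtain ⟨y, hy⟩ := t_f10 e x hx
  have hnc' : x * ψ y ≠ ψ y * x := by
    intro h
    apply hy
    apply ψ.injective
    rw [map_mul, map_mul, hx1]
    exact h
  obtain ⟨f71, f72, f73, f74⟩ := t_f7 e x y hy
  have hy1 : ψ y = y := by
    rcases t_gen e x y (ψ y) hy with h | h | h | h | h | h | h | h
    · exfalso; apply hnc'; rw [h]; simp
    · exfalso; apply hnc'; rw [h]; group
    · exfalso; apply hnc'; rw [h]
    · exfalso; apply hnc'; rw [h]; group
    · exact h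
    · apply aut_fix_of_sq_fix ψ hodd
      rw [h, map_inv, h, inv_inv]
    · apply aut_fix_of_pow4 ψ hodd
      rw [h, map_mul, hx1, h, f71, map_inv, h, map_inv, map_mul, hx1, h, f71, inv_inv]
    · apply aut_fix_of_pow4 ψ hodd
      rw [h, map_inv, map_mul, hx1, h, f73, map_inv, h, map_inv, map_inv, map_mul, hx1, h, f73,
        inv_inv]
  exact aut_id e ψ x y hy hx1 hy1

end Transport

end Cfsg.Agent.Lib.Helper97.P8
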