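import Mathlib
import Cfsg.Agent.Lib.Helper32.P8.Tools
import Cfsg.Agent.Lib.Helper97.P8.Q8Facts
import Cfsg.Agent.Lib.Helper97.P8.DecBE

/-!
# S4409 package (DBQ): `N = [N, H] C_N([N, H])` when `[N, H]` is quaternion (helper97)
-/

set_option autoImplicit false

universe u

namespace Cfsg.Agent.Lib.Helper97.P8

open Cfsg.Agent.Lib.Helper32.P8 Cfsg.Agent.Lib.Helper11.Scn

/-- the value of the automorphism induced by a normalizing element. -/
theorem nrm_apply {G : Type u} [Group G] (K : Subgroup G) (g : G)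
    (hg : g ∈ Subgroup.normalizer (K : Set G)) (t : K) :
    ((K.normalizerMonoidHom ⟨g, hg⟩ t : K) : G) = g * t * g⁻¹ := by
  simp

theorem lemDecBQ : Cfsg.Agent.Lib.Helper32.P8.LemDecBQ.{u} := by
  intro hQ8 G _ _ H N hodd hN2 hHN ⟨e⟩
  classical
  have : Fact (Nat.Prime 2) := ⟨Nat.prime_two⟩
  obtain ⟨hcop, hsolv⟩ := odd_two_data H N hodd hN2
  have h26 := Cfsg.Agent.S0026.result H N hHN hcop hsolv
  have h27 := Cfsg.Agent.S0027.result H N hHN hcop hsolv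
  have hN1N : ⁅N, H⁆ ≤ N := commutator_le_of_le_normalizer hHN
  have hNn : N ≤ Subgroup.normalizer ((⁅N, H⁆ : Subgroup G) : Set G) :=
    le_normalizer_commutator_left H N
  have hHn : H ≤ Subgroup.normalizer ((⁅N, H⁆ : Subgroup G) : Set G) :=
    le_normalizer_commutator hHN
  have hN1bot : (⁅N, H⁆ : Subgroup G) ≠ ⊥ := by
    intro h
    obtain ⟨u, v, huv⟩ := t_f11 e
    apply huv
    have hmem : ∀ g ∈ (⁅N, H⁆ : Subgroup G), g = 1 := by
      intro g hg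
      rw [h] at hg
      exact Subgroup.mem_bot.mp hg
    have hu : (u : G) = 1 := hmem _ u.2
    have hv : (v : G) = 1 := hmem _ v.2
    apply Subtype.ext
    rw [Subgroup.coe_mul, Subgroup.coe_mul, hu, hv]
  suffices hkey : N ⊓ Subgroup.centralizer (H : Set G) ≤
      ⁅N, H⁆ ⊔ (N ⊓ Subgroup.centralizer ((⁅N, H⁆ : Subgroup G) : Set G)) by
    calc N = ⁅N, H⁆ ⊔ (N ⊓ Subgroup.centralizer (H : Set G)) := h26.symm
      _ ≤ ⁅N, H⁆ ⊔ (N ⊓ Subgroup.centralizer ((⁅N, H⁆ : Subgroup G) : Set G)) :=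
        sup_le le_sup_left hkey
  intro c hc
  obtain ⟨hcN, hcH⟩ := Subgroup.mem_inf.mp hc
  rw [Subgroup.mem_centralizer_iff] at hcH
  set Φ := (⁅N, H⁆ : Subgroup G).normalizerMonoidHom with hΦ
  set γ : MulAut ↥(⁅N, H⁆ : Subgroup G) := Φ ⟨c, hNn hcN⟩ with hγ
  have hγv : ∀ t : ↥(⁅N, H⁆ : Subgroup G), ((γ t : ↥(⁅N, H⁆ : Subgroup G)) : G) = c * t * c⁻¹ :=
    fun t => nrm_apply _ c (hNn hcN) t
  -- `γ` has 2-power order
  obtain ⟨k, hk⟩ := hN2 ⟨c, hcN⟩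
  have hγk : γ ^ (2 ^ k) = 1 := by
    rw [hγ, ← map_pow]
    have : (⟨c, hNn hcN⟩ : Subgroup.normalizer ((⁅N, H⁆ : Subgroup G) : Set G)) ^ (2 ^ k) = 1 := by
      apply Subtype.ext
      have := congrArg Subtype.val hk
      simpa using this
    rw [this, map_one]
  obtain ⟨x, hx, hγx⟩ := aut_two_fix e γ k hγk
  by_cases hex : ∃ h, ∃ hh : h ∈ H, Φ ⟨h, hHn hh⟩ x ≠ x ∧ Φ ⟨h, hHn hh⟩ x ≠ x⁻¹
  · obtain ⟨h, hh, hne1, hne2⟩ := hex
    set φ := Φ ⟨h, hHn hh⟩ with hφ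
    have hφv : ∀ t : ↥(⁅N, H⁆ : Subgroup G),
        ((φ t : ↥(⁅N, H⁆ : Subgroup G)) : G) = h * t * h⁻¹ :=
      fun t => nrm_apply _ h (hHn hh) t
    have hch : h * c = c * h := hcH h hh
    have hch' : h⁻¹ * c⁻¹ = c⁻¹ * h⁻¹ := by
      rw [← mul_inv_rev, ← mul_inv_rev, hch]
    have hcomm : ∀ t, γ (φ t) = φ (γ t) := by
      intro t
      apply Subtype.ext
      rw [hγv, hφv, hφv, hγv]
      calc c * (h * (t : G) * h⁻¹) * c⁻¹ = (c * h) * (t : G) * (h⁻¹ * c⁻¹) := by group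
        _ = (h * c) * (t : G) * (c⁻¹ * h⁻¹) := by rw [hch, hch']
        _ = h * (c * (t : G) * c⁻¹) * h⁻¹ := by group
    have hφx_sq : φ x * φ x ≠ 1 := by
      intro h'
      apply hx
      apply φ.injective
      rw [map_mul, map_one]
      exact h'
    have hnc : x * φ x ≠ φ x * x := t_f3 e x (φ x) hx hφx_sq hne1 hne2
    have hγφ : γ (φ x) = φ x ∨ γ (φ x) = (φ x)⁻¹ := by
      rw [hcomm]
      rcases hγx with h' | h'
      · left; rw [h']
      · right; rw [h', map_inv]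
    have hall := aut_pairs e γ x (φ x) hnc hγx hγφ
    obtain ⟨t, ht⟩ := hQ8 ⟨e⟩ γ hall
    have hdec : c = (t : G) * ((t : G)⁻¹ * c) := by group
    rw [hdec]
    apply Subgroup.mul_mem_sup t.2
    refine Subgroup.mem_inf.mpr ⟨N.mul_mem (N.inv_mem (hN1N t.2)) hcN, ?_⟩
    rw [Subgroup.mem_centralizer_iff]
    intro n hn
    have h1 := congrArg Subtype.val (ht ⟨n, hn⟩)
    rw [hγv] at h1
    have h2 : c * n * c⁻¹ = (t : G) * n * (t : G)⁻¹ := by
      rw [h1]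
      simp
    calc n * ((t : G)⁻¹ * c) = (t : G)⁻¹ * ((t : G) * n * (t : G)⁻¹) * c := by group
      _ = (t : G)⁻¹ * (c * n * c⁻¹) * c := by rw [h2]
      _ = (t : G)⁻¹ * c * n := by group
  · exfalso
    push Not at hex
    apply hN1bot
    rw [← h27, Subgroup.commutator_eq_bot_iff_le_centralizer]
    intro n hn
    rw [Subgroup.mem_centralizer_iff]
    intro h hh
    have hoddφ : Odd (orderOf (Φ ⟨h, hHn hh⟩)) := by
      refine hodd.of_dvd_nat ((orderOf_map_dvd Φ _).trans ?_)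
      rw [Subgroup.orderOf_mk]
      exact H.orderOf_dvd_natCard hh
    have hfx : Φ ⟨h, hHn hh⟩ x = x ∨ Φ ⟨h, hHn hh⟩ x = x⁻¹ := by
      by_cases h1 : Φ ⟨h, hHn hh⟩ x = x
      · left; exact h1
      · right; exact hex h hh h1
    have hid := aut_odd_id e (Φ ⟨h, hHn hh⟩) hoddφ x hx hfx ⟨n, hn⟩
    have h1 := congrArg Subtype.val hid
    rw [nrm_apply] at h1
    calc h * n = h * n * h⁻¹ * h := by group
      _ = n * h := by rw [h1]

end Cfsg.Agent.Lib.Helper97.P8
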