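import Mathlib
import Cfsg.Agent.Lib.Helper32.P8.Tools
import Cfsg.Agent.Lib.Helper97.P8.Four

/-!
# S4409 package (VE): a self-centralizing normal four-group excludes `P8`-subgroups (helper97)
-/

set_option autoImplicit false

universe u

namespace Cfsg.Agent.Lib.Helper97.P8

open Cfsg.Agent.Lib.Helper32.P8 Cfsg.Agent.Lib.Helper11.Scn

theorem lemVsE : Cfsg.Agent.Lib.Helper32.P8.LemVsE.{u} := by
  intro G _ _ T hTn hCT hT4 hexp
  rintro ⟨B, hBc, hBnc, hB8⟩
  classical
  have := hTn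
  have : Fact (Nat.Prime 2) := ⟨Nat.prime_two⟩
  have hBcomm : ∀ a ∈ B, ∀ b ∈ B, a * b = b * a := by
    intro a ha b hb
    exact congrArg Subtype.val (hBc.is_comm.comm (⟨a, ha⟩ : ↥B) ⟨b, hb⟩)
  have hT2 : IsPGroup 2 T := IsPGroup.of_card (n := 2) (by rw [hT4]; norm_num)
  have hB2 : IsPGroup 2 B := IsPGroup.of_card (n := 3) (by rw [hB8]; norm_num)
  have hP : IsPGroup 2 ↥(T ⊔ B) := IsPGroup.to_sup_of_normal_left hT2 hB2
  have hTbot : T ≠ ⊥ := by
    intro h
    rw [h] at hT4
    simp at hT4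
  have hN1 : T.subgroupOf (T ⊔ B) ≠ ⊥ := by
    intro h
    rw [Subgroup.subgroupOf_eq_bot] at h
    exact hTbot (le_bot_iff.mp (h le_rfl le_sup_left))
  obtain ⟨y, hyN, hyZ, hy1⟩ := normal_inf_center_ne_bot hP (T.subgroupOf (T ⊔ B)) hN1
  have ht1T : (y : G) ∈ T := Subgroup.mem_subgroupOf.mp hyN
  have ht1ne : (y : G) ≠ 1 := fun h => hy1 (Subtype.ext h)
  have ht1B : ∀ b ∈ B, b * (y : G) = (y : G) * b := by
    intro b hb
    have := Subgroup.mem_center_iff.mp hyZ ⟨b, (le_sup_right : B ≤ T ⊔ B) hb⟩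
    exact congrArg Subtype.val this
  obtain ⟨y0, hy0T, hy01, hy0y⟩ := exists_third T hT4 (y : G)
  have hfour := four_elts T hT4 hexp ht1T hy0T ht1ne hy01 (Ne.symm hy0y)
  -- conjugates of `y0`
  have hconj : ∀ b ∈ B, b * y0 * b⁻¹ = y0 ∨ b * y0 * b⁻¹ = (y : G) * y0 := by
    intro b hb
    rcases hfour _ (hTn.conj_mem y0 hy0T b) with h | h | h | h
    · exfalso
      apply hy01
      have : y0 = b⁻¹ * (b * y0 * b⁻¹) * b := by group
      rw [this, h]; group
    · exfalso
      apply hy0y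
      have : y0 = b⁻¹ * (b * y0 * b⁻¹) * b := by group
      rw [this, h, mul_assoc, ← ht1B b hb]; group
    · left; exact h
    · right; exact h
  -- elements of `B` commuting with `y0` lie in `T`
  have hcent : ∀ b ∈ B, b * y0 * b⁻¹ = y0 → b ∈ T := by
    intro b hb h
    apply hCT
    rw [Subgroup.mem_centralizer_iff]
    intro t ht
    have hby0 : b * y0 = y0 * b := by
      calc b * y0 = b * y0 * b⁻¹ * b := by group
        _ = y0 * b := by rw [h]
    rcases hfour t ht with rfl | rfl | rfl | rfl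
    · simp
    · exact (ht1B b hb).symm
    · exact hby0.symm
    · rw [mul_assoc, ← hby0, ← mul_assoc, ← ht1B b hb, mul_assoc]
  have hprod : ∀ b ∈ B, b ∉ T → ∀ b' ∈ B, b' ∉ T → b * b' ∈ T := by
    intro b hb hbT b' hb' hb'T
    apply hcent _ (B.mul_mem hb hb')
    have h1 : b * y0 * b⁻¹ = (y : G) * y0 := by
      rcases hconj b hb with h | h
      · exact absurd (hcent b hb h) hbT
      · exact h
    have h2 : b' * y0 * b'⁻¹ = (y : G) * y0 := by
      rcases hconj b' hb' with h | h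
      · exact absurd (hcent b' hb' h) hb'T
      · exact h
    have hyy : (y : G) * (y : G) = 1 := hexp _ ht1T
    calc b * b' * y0 * (b * b')⁻¹ = b * (b' * y0 * b'⁻¹) * b⁻¹ := by group
      _ = b * ((y : G) * y0) * b⁻¹ := by rw [h2]
      _ = (b * (y : G)) * y0 * b⁻¹ := by group
      _ = ((y : G) * b) * y0 * b⁻¹ := by rw [ht1B b hb]
      _ = (y : G) * (b * y0 * b⁻¹) := by group
      _ = (y : G) * ((y : G) * y0) := by rw [h1]
      _ = ((y : G) * (y : G)) * y0 := by group
      _ = y0 := by rw [hyy, one_mul]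
  have hBT : ¬ B ≤ T := by
    intro hle
    have := Subgroup.card_le_of_le hle
    omega
  obtain ⟨b0, hb0B, hb0T⟩ := SetLike.not_le_iff_exists.mp hBT
  have hrel : T.relIndex B = 2 := by
    rw [Subgroup.relIndex_eq_two_iff]
    refine ⟨b0, hb0B, fun b hb => ?_⟩
    by_cases hbT : b ∈ T
    · right
      refine ⟨hbT, fun h => hb0T ?_⟩
      have := T.mul_mem (T.inv_mem hbT) h
      simpa using this
    · left
      exact ⟨hprod b hb hbT b0 hb0B hb0T, hbT⟩
  have hcard : Nat.card ↥(T ⊓ B) = 4 := by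
    have h1 := Subgroup.relIndex_mul_relIndex (⊥ : Subgroup G) (T ⊓ B) B bot_le inf_le_right
    rw [Subgroup.relIndex_bot_left, Subgroup.relIndex_bot_left, Subgroup.inf_relIndex_right, hrel,
      hB8] at h1
    omega
  have hTB : T ⊓ B = T := Subgroup.eq_of_le_of_card_ge inf_le_left (by rw [hcard, hT4])
  have hTleB : T ≤ B := by rw [← hTB]; exact inf_le_right
  apply hBT
  intro b hb
  apply hCT
  rw [Subgroup.mem_centralizer_iff]
  intro t ht
  exact hBcomm t (hTleB ht) b hb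

end Cfsg.Agent.Lib.Helper97.P8
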