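import Mathlib
import Cfsg.Agent.Lib.Helper32.P8.Tools
import Cfsg.Agent.Lib.Helper97.P8.Q8Facts

/-!
# S4409 package (VQ): a self-centralizing normal quaternion group excludes `P8`-subgroups
(helper97)
-/

set_option autoImplicit false

universe u

namespace Cfsg.Agent.Lib.Helper97.P8

open Cfsg.Agent.Lib.Helper32.P8 Cfsg.Agent.Lib.Helper11.Scn

theorem lemVsQ : Cfsg.Agent.Lib.Helper32.P8.LemVsQ.{u} := by
  intro hQ8 G _ _ T hTn hCT ⟨e⟩
  rintro ⟨B, hBc, hBnc, hB8⟩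
  classical
  have := hTn
  have : Fact (Nat.Prime 2) := ⟨Nat.prime_two⟩
  set Ψ : G →* MulAut ↥T := MulAut.conjNormal with hΨdef
  have hΨ : ∀ (g : G) (t : T), ((Ψ g t : T) : G) = g * t * g⁻¹ :=
    fun g t => MulAut.conjNormal_apply g t
  have hBcomm : ∀ a ∈ B, ∀ b ∈ B, a * b = b * a := by
    intro a ha b hb
    exact congrArg Subtype.val (hBc.is_comm.comm (⟨a, ha⟩ : ↥B) ⟨b, hb⟩)
  -- an element fixing all pairs lies in `T`
  have hK : ∀ g : G, (∀ q : T, Ψ g q = q ∨ Ψ g q = q⁻¹) → g ∈ T := by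
    intro g hg
    obtain ⟨t, ht⟩ := hQ8 ⟨e⟩ (Ψ g) hg
    have h1 : (t : G)⁻¹ * g ∈ Subgroup.centralizer (T : Set G) := by
      rw [Subgroup.mem_centralizer_iff]
      intro n hn
      have h1 := congrArg Subtype.val (ht ⟨n, hn⟩)
      rw [hΨ] at h1
      have h2 : g * n * g⁻¹ = (t : G) * n * (t : G)⁻¹ := by
        rw [h1]
        simp
      calc n * ((t : G)⁻¹ * g) = (t : G)⁻¹ * ((t : G) * n * (t : G)⁻¹) * g := by group
        _ = (t : G)⁻¹ * (g * n * g⁻¹) * g := by rw [h2]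
        _ = (t : G)⁻¹ * g * n := by group
    have h2 := hCT h1
    have h3 : g = (t : G) * ((t : G)⁻¹ * g) := by group
    rw [h3]
    exact T.mul_mem t.2 h2
  have hFIX : ∀ g : G, ∀ u v : T, u * v ≠ v * u → (Ψ g u = u ∨ Ψ g u = u⁻¹) →
      (Ψ g v = v ∨ Ψ g v = v⁻¹) → g ∈ T :=
    fun g u v h hu hv => hK g (aut_pairs e (Ψ g) u v h hu hv)
  -- `B` is not inside `T`
  have hT8 : Nat.card T = 8 := by
    rw [Nat.card_congr e.toEquiv, Nat.card_eq_fintype_card, QuaternionGroup.card]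
  have hBT : ¬ B ≤ T := by
    intro hle
    have hBT' : B = T := Subgroup.eq_of_le_of_card_ge hle (by rw [hT8, hB8])
    obtain ⟨u, v, huv⟩ := t_f11 e
    apply huv
    have hu : (u : G) ∈ B := by rw [hBT']; exact u.2
    have hv : (v : G) ∈ B := by rw [hBT']; exact v.2
    exact Subtype.ext (hBcomm u hu v hv)
  obtain ⟨b0, hb0B, hb0T⟩ := SetLike.not_le_iff_exists.mp hBT
  have hb08 : b0 ^ 8 = 1 := by
    have h1 := pow_card_eq_one' (G := B) (x := ⟨b0, hb0B⟩)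
    rw [hB8] at h1
    have h2 := congrArg Subtype.val h1
    simpa using h2
  have hα8 : (Ψ b0) ^ (2 ^ 3) = 1 := by
    have h23 : (2 : ℕ) ^ 3 = 8 := by norm_num
    rw [h23, ← map_pow, hb08, map_one]
  obtain ⟨u, hu, hαu⟩ := aut_two_fix e (Ψ b0) 3 hα8
  -- all of `B` preserves the pair of `u`
  have hC2 : ∀ b ∈ B, Ψ b u = u ∨ Ψ b u = u⁻¹ := by
    intro b hb
    by_contra hcon
    push Not at hcon
    have husq : Ψ b u * Ψ b u ≠ 1 := by
      intro h
      apply hu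
      apply (Ψ b).injective
      rw [map_mul, map_one]
      exact h
    have hnc : u * Ψ b u ≠ Ψ b u * u := t_f3 e u (Ψ b u) hu husq hcon.1 hcon.2
    have hsw : Ψ b0 (Ψ b u) = Ψ b (Ψ b0 u) := by
      have h1 := hBcomm b0 hb0B b hb
      calc Ψ b0 (Ψ b u) = (Ψ b0 * Ψ b) u := rfl
        _ = Ψ (b0 * b) u := by rw [map_mul]
        _ = Ψ (b * b0) u := by rw [h1]
        _ = (Ψ b * Ψ b0) u := by rw [map_mul]
        _ = Ψ b (Ψ b0 u) := rfl
    have hαu' : Ψ b0 (Ψ b u) = Ψ b u ∨ Ψ b0 (Ψ b u) = (Ψ b u)⁻¹ := by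
      rw [hsw]
      rcases hαu with h | h
      · left; rw [h]
      · right; rw [h, map_inv]
    exact hb0T (hFIX b0 u (Ψ b u) hnc hαu hαu')
  obtain ⟨v, hv⟩ := t_f10 e u hu
  obtain ⟨f71, f72, f73, f74⟩ := t_f7 e u v hv
  have hC3 : ∀ b ∈ B, b ∉ T → Ψ b v = u * v ∨ Ψ b v = (u * v)⁻¹ := by
    intro b hb hbT
    have hnc' : u * Ψ b v ≠ Ψ b v * u := by
      intro h
      apply hv
      apply (Ψ b).injective
      rw [map_mul, map_mul]
      rcases hC2 b hb with h' | h'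
      · rw [h']; exact h
      · rw [h']
        calc u⁻¹ * Ψ b v = u⁻¹ * (Ψ b v * u) * u⁻¹ := by group
          _ = u⁻¹ * (u * Ψ b v) * u⁻¹ := by rw [h]
          _ = Ψ b v * u⁻¹ := by group
    rcases t_gen e u v (Ψ b v) hv with h | h | h | h | h | h | h | h
    · exfalso; apply hnc'; rw [h]; simp
    · exfalso; apply hnc'; rw [h]; group
    · exfalso; apply hnc'; rw [h]
    · exfalso; apply hnc'; rw [h]; group
    · exact absurd (hFIX b u v hv (hC2 b hb) (Or.inl h)) hbT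
    · exact absurd (hFIX b u v hv (hC2 b hb) (Or.inr h)) hbT
    · left; exact h
    · right; exact h
  have hC4 : ∀ b ∈ B, b ∉ T → ∀ b' ∈ B, b' ∉ T → b * b' ∈ T := by
    intro b hb hbT b' hb' hb'T
    apply hFIX (b * b') u v hv
    · rw [map_mul, MulAut.mul_apply]
      rcases hC2 b' hb' with h | h <;> rcases hC2 b hb with h' | h'
      · left; rw [h, h']
      · right; rw [h, h']
      · right; rw [h, map_inv, h']
      · left; rw [h, map_inv, h', inv_inv]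
    · rw [map_mul, MulAut.mul_apply]
      rcases hC3 b' hb' hb'T with h | h <;> rcases hC3 b hb hbT with h' | h' <;>
        rcases hC2 b hb with h'' | h''
      · right; rw [h, map_mul, h', h'', f71]
      · left; rw [h, map_mul, h', h'', f72]
      · left; rw [h, map_mul, h', h'', f73]
      · right; rw [h, map_mul, h', h'', f74]
      · left; rw [h, map_inv, map_mul, h', h'', f71, inv_inv]
      · right; rw [h, map_inv, map_mul, h', h'', f72]
      · right; rw [h, map_inv, map_mul, h', h'', f73]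
      · left; rw [h, map_inv, map_mul, h', h'', f74, inv_inv]
  have hrel : T.relIndex B = 2 := by
    rw [Subgroup.relIndex_eq_two_iff]
    refine ⟨b0, hb0B, fun b hb => ?_⟩
    by_cases hbT : b ∈ T
    · right
      refine ⟨hbT, fun h => hb0T ?_⟩
      have := T.mul_mem (T.inv_mem hbT) h
      simpa using this
    · left
      exact ⟨hC4 b hb hbT b0 hb0B hb0T, hbT⟩
  have hcard : Nat.card ↥(T ⊓ B) = 4 := by
    have h1 := Subgroup.relIndex_mul_relIndex (⊥ : Subgroup G) (T ⊓ B) B bot_le inf_le_right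
    rw [Subgroup.relIndex_bot_left, Subgroup.relIndex_bot_left, Subgroup.inf_relIndex_right, hrel,
      hB8] at h1
    omega
  -- an element of order 4 in `T ⊓ B`
  obtain ⟨x, hxTB, hxsq⟩ : ∃ x ∈ T ⊓ B, x * x ≠ 1 := by
    by_contra hcon
    push Not at hcon
    have hsub : ((T ⊓ B : Subgroup G) : Set G) ⊆
        {1, ((e.symm (QuaternionGroup.a 2) : T) : G)} := by
      intro y hy
      have hyT : y ∈ T := (Subgroup.mem_inf.mp hy).1
      rcases t_f8 e ⟨y, hyT⟩ (Subtype.ext (hcon y hy)) with h | h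
      · left; exact congrArg Subtype.val h
      · right; exact congrArg Subtype.val h
    have h1 := Set.ncard_le_ncard hsub (Set.toFinite _)
    have h2 : ({1, ((e.symm (QuaternionGroup.a 2) : T) : G)} : Set G).ncard ≤ 2 := by
      refine (Set.ncard_insert_le _ _).trans ?_
      rw [Set.ncard_singleton]
    have h3 : Nat.card ↥(T ⊓ B) = ((T ⊓ B : Subgroup G) : Set G).ncard :=
      Nat.card_coe_set_eq ((T ⊓ B : Subgroup G) : Set G)
    omega
  obtain ⟨hxT, hxB⟩ := Subgroup.mem_inf.mp hxTB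
  have hXsq : (⟨x, hxT⟩ : T) * ⟨x, hxT⟩ ≠ 1 := fun h => hxsq (congrArg Subtype.val h)
  have hb0x : b0 * x = x * b0 := hBcomm b0 hb0B x hxB
  have hαX : Ψ b0 ⟨x, hxT⟩ = ⟨x, hxT⟩ := by
    apply Subtype.ext
    rw [hΨ]
    show b0 * x * b0⁻¹ = x
    rw [hb0x]
    group
  obtain ⟨v', hv'⟩ := t_f10 e ⟨x, hxT⟩ hXsq
  obtain ⟨g71, g72, g73, g74⟩ := t_f7 e ⟨x, hxT⟩ v' hv'
  have hnc'' : (⟨x, hxT⟩ : T) * Ψ b0 v' ≠ Ψ b0 v' * ⟨x, hxT⟩ := by
    intro h
    apply hv'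
    apply (Ψ b0).injective
    rw [map_mul, map_mul, hαX]
    exact h
  have hαα : Ψ b0 (Ψ b0 v') = v'⁻¹ := by
    rcases t_gen e ⟨x, hxT⟩ v' (Ψ b0 v') hv' with h | h | h | h | h | h | h | h
    · exfalso; apply hnc''; rw [h]; simp
    · exfalso; apply hnc''; rw [h]; group
    · exfalso; apply hnc''; rw [h]
    · exfalso; apply hnc''; rw [h]; group
    · exact absurd (hFIX b0 ⟨x, hxT⟩ v' hv' (Or.inl hαX) (Or.inl h)) hb0T
    · exact absurd (hFIX b0 ⟨x, hxT⟩ v' hv' (Or.inl hαX) (Or.inr h)) hb0T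
    · rw [h, map_mul, hαX, h, g71]
    · rw [h, map_inv, map_mul, hαX, h, g73]
  have hsT : b0 * b0 ∈ T := hC4 b0 hb0B hb0T b0 hb0B hb0T
  have hSX : (⟨b0 * b0, hsT⟩ : T) * ⟨x, hxT⟩ = ⟨x, hxT⟩ * ⟨b0 * b0, hsT⟩ := by
    apply Subtype.ext
    show b0 * b0 * x = x * (b0 * b0)
    calc b0 * b0 * x = b0 * (b0 * x) := by group
      _ = b0 * (x * b0) := by rw [hb0x]
      _ = (b0 * x) * b0 := by group
      _ = x * b0 * b0 := by rw [hb0x]
      _ = x * (b0 * b0) := by group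
  have hSv : (⟨b0 * b0, hsT⟩ : T) * v' * (⟨b0 * b0, hsT⟩ : T)⁻¹ = v'⁻¹ := by
    rw [← hαα]
    apply Subtype.ext
    rw [hΨ, hΨ]
    show b0 * b0 * (v' : G) * (b0 * b0)⁻¹ = b0 * (b0 * (v' : G) * b0⁻¹) * b0⁻¹
    group
  have hS2 : (⟨b0 * b0, hsT⟩ : T) * ⟨b0 * b0, hsT⟩ ≠ 1 := by
    rcases t_f9 e ⟨b0 * b0, hsT⟩ ⟨x, hxT⟩ v' hv' hSX hSv with h | h
    · rw [h]; exact hXsq
    · rw [h]
      intro h'
      apply hXsq
      have h'' : ((⟨x, hxT⟩ : T) * ⟨x, hxT⟩)⁻¹ = 1 := by rw [mul_inv_rev]; exact h'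
      exact inv_eq_one.mp h''
  have hb04 : ¬ b0 ^ 2 ^ 2 = 1 := by
    intro h4
    apply hS2
    apply Subtype.ext
    show b0 * b0 * (b0 * b0) = 1
    have h4' : b0 ^ 4 = 1 := by
      have h22 : (2 : ℕ) ^ 2 = 4 := by norm_num
      rw [h22] at h4
      exact h4
    calc b0 * b0 * (b0 * b0) = b0 ^ 4 := by simp [pow_succ, mul_assoc]
      _ = 1 := h4'
  have hord : orderOf b0 = 2 ^ (2 + 1) := orderOf_eq_prime_pow hb04 (by norm_num; exact hb08)
  apply hBnc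
  apply isCyclic_of_orderOf_eq_card (⟨b0, hb0B⟩ : B)
  rw [Subgroup.orderOf_mk, hord, hB8]
  norm_num

end Cfsg.Agent.Lib.Helper97.P8
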